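import Cfsg.Agent.Lib.SimpleOrder.Basic
import Cfsg.Agent.Lib.Blocks.FreeNormalizerThree
import Cfsg.Agent.Lib.Blocks.Exists
import Cfsg.Agent.Lib.Characters.Det

/-!
# Simple groups with a Sylow subgroup of prime order

Degree and centraliser restrictions from the principal block.
-/

set_option autoImplicit false
set_option linter.unusedSectionVars false
set_option linter.style.longLine false
set_option linter.style.haveILetI false

namespace Cfsg.Lib.SimpleOrder.DefectOne

open Cfsg.Lib.Characters Cfsg.Lib.Blocks Cfsg.Lib.FreeNormalizer Finset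
open scoped ComplexConjugate Classical

variable {G : Type*} [Group G] [Fintype G] {p : ℕ} [hp : Fact p.Prime]

theorem geom_root {z : ℂ} {n : ℕ} (h : z ^ n = 1) :
    ∑ j ∈ range n, z ^ j = if z = 1 then (n : ℂ) else 0 := by
  split_ifs with h1
  · simp [h1]
  · have := geom_sum_mul z n
    rw [h, sub_self, mul_eq_zero] at this
    exact this.resolve_right (sub_ne_zero.mpr h1)

section sylow

variable {P : Sylow p G}

theorem zpowers_eq (hP : Nat.card (P : Subgroup G) = p) {y : G} (hy : y ∈ (P : Subgroup G)) (hy1 : y ≠ 1) :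
    Subgroup.zpowers y = (P : Subgroup G) ∧ orderOf y = p := by
  have h1 : orderOf y ∣ p := hP ▸ Subgroup.orderOf_dvd_natCard _ hy
  have h2 := ((Nat.dvd_prime hp.out).mp h1).resolve_left fun h => hy1 (orderOf_eq_one_iff.mp h)
  exact ⟨Subgroup.eq_of_le_of_card_ge (Subgroup.zpowers_le.mpr hy) (by rw [Nat.card_zpowers, h2, hP]), h2⟩

theorem comm_of_prime (hP : Nat.card (P : Subgroup G) = p) (a b : ↥(P : Subgroup G)) : a * b = b * a := by
  haveI : IsCyclic ↥(P : Subgroup G) := isCyclic_of_prime_card hP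
  exact IsMulCommutative.is_comm.comm a b

theorem centralizer_eq (hP : Nat.card (P : Subgroup G) = p) {y : G} (hy : y ∈ (P : Subgroup G)) (hy1 : y ≠ 1) :
    Subgroup.centralizer ({y} : Set G) = Subgroup.centralizer ((P : Subgroup G) : Set G) := by
  refine le_antisymm (fun g hg => ?_) (Subgroup.centralizer_le (Set.singleton_subset_iff.mpr hy))
  rw [Subgroup.mem_centralizer_iff]
  intro w hw
  rw [SetLike.mem_coe, ← (zpowers_eq hP hy hy1).1] at hw
  obtain ⟨i, rfl⟩ := Subgroup.mem_zpowers_iff.mp hw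
  have hc : Commute g y := Subgroup.mem_centralizer_singleton_iff.mp hg
  exact (hc.zpow_right i).eq.symm

theorem hyp_of_prime (hP : Nat.card (P : Subgroup G) = p) : Hyp P where
  comm := comm_of_prime hP
  free y hy hy1 := by
    rw [centralizer_eq hP hy hy1, inf_eq_left]
    intro g hg
    rw [Subgroup.mem_normalizer_iff]
    intro w
    constructor
    · intro hw
      rw [← Subgroup.mem_centralizer_iff.mp hg w hw, mul_inv_cancel_right]
      exact hw
    · intro hw
      have h1 := Subgroup.mem_centralizer_iff.mp hg _ hw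
      have h2 : g * w * g⁻¹ = w :=
        mul_left_cancel (a := g) (by rw [← h1, inv_mul_cancel_right])
      rwa [h2] at hw

theorem le_centralizer (hP : Nat.card (P : Subgroup G) = p) :
    (P : Subgroup G) ≤ Subgroup.centralizer ((P : Subgroup G) : Set G) := fun a ha => by
  rw [Subgroup.mem_centralizer_iff]
  intro b hb
  exact congrArg Subtype.val (comm_of_prime hP ⟨b, hb⟩ ⟨a, ha⟩)

theorem centralizer_le_normalizer (hP : Nat.card (P : Subgroup G) = p) :
    Subgroup.centralizer ((P : Subgroup G) : Set G) ≤ Subgroup.normalizer ((P : Subgroup G) : Set G) := by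
  haveI : Nontrivial ↥(P : Subgroup G) :=
    Finite.one_lt_card_iff_nontrivial.mp (by rw [hP]; exact hp.out.one_lt)
  obtain ⟨w, hw⟩ := exists_ne (1 : ↥(P : Subgroup G))
  have h := (hyp_of_prime hP).free w w.2 fun h => hw (Subtype.ext h)
  intro g hg
  exact (h.ge hg).2

theorem card_normalizer (hP : Nat.card (P : Subgroup G) = p) :
    Nat.card (Subgroup.centralizer ((P : Subgroup G) : Set G)) * Nat.card (aut P)
      = Nat.card (Subgroup.normalizer ((P : Subgroup G) : Set G)) := by
  rw [card_aut]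
  have h := Subgroup.relIndex_mul_relIndex ⊥ _ _ bot_le (centralizer_le_normalizer hP)
  rwa [Subgroup.relIndex_bot_left, Subgroup.relIndex_bot_left] at h

/-- The order of the group through the number of Sylow subgroups. -/
theorem card_eq (hP : Nat.card (P : Subgroup G) = p) :
    Nat.card (Subgroup.centralizer ((P : Subgroup G) : Set G)) * Nat.card (aut P) * Nat.card (Sylow p G)
      = Nat.card G := by
  rw [card_normalizer hP, P.card_eq_index_normalizer]
  exact Subgroup.card_mul_index (Subgroup.normalizer ((P : Subgroup G) : Set G))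

theorem dvd_card_centralizer (hP : Nat.card (P : Subgroup G) = p) :
    p ∣ Nat.card (Subgroup.centralizer ((P : Subgroup G) : Set G)) :=
  by
  conv_lhs => rw [← hP]
  exact Subgroup.card_dvd_of_le (le_centralizer hP)

theorem card_aut_dvd (hP : Nat.card (P : Subgroup G) = p) : Nat.card (aut P) ∣ p - 1 := by
  haveI : IsCyclic ↥(P : Subgroup G) := isCyclic_of_prime_card hP
  have := Subgroup.card_subgroup_dvd_card (aut P)
  rwa [IsCyclic.card_mulAut, hP, Nat.totient_prime hp.out] at this

theorem card_aut_ne_one [IsSimpleGroup G] (hG : ¬ IsMulCommutative G) (hP : Nat.card (P : Subgroup G) = p) :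
    Nat.card (aut P) ≠ 1 := by
  intro hm
  have hle : Subgroup.normalizer ((P : Subgroup G) : Set G) ≤ Subgroup.centralizer ((P : Subgroup G) : Set G) := by
    rw [card_aut, Subgroup.relIndex_eq_one] at hm
    exact hm
  have hc := MonoidHom.ker_transferSylow_isComplement' P hle
  have hcard := hc.card_mul_card
  rw [hP] at hcard
  rcases IsSimpleGroup.eq_bot_or_eq_top_of_normal (MonoidHom.transferSylow P hle).ker inferInstance with e | e
  · rw [e, Subgroup.card_bot, one_mul] at hcard
    haveI : IsCyclic G := isCyclic_of_prime_card hcard.symm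
    exact hG inferInstance
  · rw [e, Subgroup.card_top] at hcard
    have := Nat.eq_of_mul_eq_mul_left Nat.card_pos (hcard.trans (mul_one _).symm)
    exact hp.out.ne_one this

end sylow

section chars

variable [IsSimpleGroup G]

theorem linear_trivial (hG : ¬ IsMulCommutative G) (D : G →* ℂˣ) (g : G) : D g = 1 := by
  rcases IsSimpleGroup.eq_bot_or_eq_top_of_normal D.ker inferInstance with e | e
  · exact absurd ⟨⟨fun a b => (MonoidHom.ker_eq_bot_iff D).mp e (by rw [map_mul, map_mul, mul_comm])⟩⟩ hG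
  · exact MonoidHom.mem_ker.mp (e ▸ Subgroup.mem_top g)

theorem two_le_degree (hG : ¬ IsMulCommutative G) {χ : IrrCharacter G} (hne : χ ≠ trivChar G) {f : ℕ}
    (hf : (χ : G → ℂ) 1 = f) : 2 ≤ f := by
  by_contra hlt
  rcases f with - | - | f
  · exact χ.2.one_ne_zero (by rw [hf, Nat.cast_zero])
  · obtain ⟨D, hD⟩ := exists_hom_of_degree_one χ.2.isCharacter (by rw [hf, Nat.cast_one])
    refine hne (Subtype.ext (funext fun g => ?_))
    rw [trivChar_apply]
    have := congrFun hD g
    simp [linear_trivial hG D g] at this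
    exact this
  · omega

theorem eq_triv_of_ker {χ : IrrCharacter G} {u : G} (hu : u ≠ 1) (he : (χ : G → ℂ) u = (χ : G → ℂ) 1) :
    χ = trivChar G := by
  by_contra hne
  rcases IsSimpleGroup.eq_bot_or_eq_top_of_normal (charKer χ.2.isCharacter) (charKer_normal _) with e | e
  · exact hu (Subgroup.mem_bot.mp (e ▸ (mem_charKer _).mpr he))
  have hconst : ∀ g, (χ : G → ℂ) g = (χ : G → ℂ) 1 := fun g =>
    (mem_charKer χ.2.isCharacter).mp (e ▸ Subgroup.mem_top g)
  have h1 := classInner_irr_ne χ.2 (trivChar G).2 fun hh => hne (Subtype.ext hh)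
  rw [classInner] at h1
  simp only [trivChar_apply, map_one, mul_one, hconst, Finset.sum_const, Finset.card_univ,
    nsmul_eq_mul, ← Nat.card_eq_fintype_card] at h1
  rw [inv_mul_cancel_left₀ (Nat.cast_ne_zero.mpr Nat.card_pos.ne')] at h1
  exact χ.2.one_ne_zero h1

variable {M : Ideal Cfsg.AlgInt} [M.IsPrime] {P : Sylow p G}

/-- A nontrivial character of degree less than `2p` in the principal block makes `P` self-centralising. -/
theorem centralizer_eq_of_small (hG : ¬ IsMulCommutative G) (hP : Nat.card (P : Subgroup G) = p)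
    (hM : IsPModular p M) {χ : IrrCharacter G} (hB : χ ∈ B0 M) (hne : χ ≠ trivChar G) {f : ℕ}
    (hf : (χ : G → ℂ) 1 = f) (hlt : f < 2 * p) :
    Subgroup.centralizer ((P : Subgroup G) : Set G) = (P : Subgroup G) := by
  by_contra hne'
  set C := Subgroup.centralizer ((P : Subgroup G) : Set G)
  have hPC : (P : Subgroup G) ≤ C := le_centralizer hP
  have hidx : ((P : Subgroup G).subgroupOf C).index ≠ 1 := by
    rw [Ne, Subgroup.index_eq_one, Subgroup.subgroupOf_eq_top]
    exact fun h => hne' (le_antisymm h hPC)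
  obtain ⟨q, hq, hqd⟩ := Nat.exists_prime_and_dvd hidx
  haveI := Fact.mk hq
  have hpn : ¬ p ∣ ((P : Subgroup G).subgroupOf C).index := fun hd =>
    P.not_dvd_index (hd.trans (Subgroup.relIndex_dvd_index_of_le hPC))
  have hqp : q ≠ p := by rintro rfl; exact hpn hqd
  obtain ⟨u₀, hu₀⟩ := exists_prime_orderOf_dvd_card' q (hqd.trans (Subgroup.index_dvd_card _))
  have hou : orderOf (u₀ : G) = q := by rw [Subgroup.orderOf_coe]; exact hu₀
  haveI : Nontrivial ↥(P : Subgroup G) :=
    Finite.one_lt_card_iff_nontrivial.mp (by rw [hP]; exact hp.out.one_lt)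
  obtain ⟨w₀, hw₀⟩ := exists_ne (1 : ↥(P : Subgroup G))
  have how : orderOf (w₀ : G) = p := (zpowers_eq hP w₀.2 fun h => hw₀ (Subtype.ext h)).2
  set u : G := (u₀ : G)
  set w : G := (w₀ : G)
  have hcom : Commute u w := (Subgroup.mem_centralizer_iff.mp u₀.2 w w₀.2).symm
  obtain ⟨ea, hea1, hea0⟩ := exists_piExp (a := q) (b := p) ((Nat.coprime_primes hq hp.out).mpr hqp)
  obtain ⟨eb, heb1, heb0⟩ := exists_piExp (a := p) (b := q) ((Nat.coprime_primes hp.out hq).mpr (Ne.symm hqp))
  have huq : u ^ q = 1 := by rw [← hou]; exact pow_orderOf_eq_one u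
  have hwp : w ^ p = 1 := by rw [← how]; exact pow_orderOf_eq_one w
  have hya : (u * w) ^ ea = u := by
    rw [hcom.mul_pow, pow_piExp_of_left hea1 huq, pow_piExp_of_right hea0 hwp, mul_one]
  have hyb : (u * w) ^ eb = w := by
    rw [hcom.mul_pow, pow_piExp_of_right heb0 huq, pow_piExp_of_left heb1 hwp, one_mul]
  obtain ⟨n, σ, hσ⟩ := χ.2.isCharacter
  obtain ⟨b, ν, hb, hν⟩ := exists_eigenbasis σ (u * w)
  set α := fun i => ν i ^ ea
  set β := fun i => ν i ^ eb
  have hpow : ∀ (k : ℕ) i, σ ((u * w) ^ k) (b i) = ν i ^ k • b i := by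
    intro k i
    induction k with
    | zero => simp
    | succ k ih => rw [pow_succ' (u * w), map_mul, Module.End.mul_apply, ih, map_smul, hb, smul_smul, pow_succ]
  have hval : ∀ j l : ℕ, (χ : G → ℂ) (u ^ j * w ^ l) = ∑ i, α i ^ j * β i ^ l := by
    intro j l
    rw [← hσ, show u ^ j * w ^ l = (u * w) ^ (ea * j + eb * l) by rw [pow_add, pow_mul, pow_mul, hya, hyb],
      character_pow_eq σ (u * w) b ν hb]
    exact Finset.sum_congr rfl fun i _ => by simp only [α, β]; rw [pow_add, pow_mul, pow_mul]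
  have hνpow : ∀ i (m : ℕ), (u * w) ^ m = 1 → ν i ^ m = 1 := fun i m hm => by
    obtain ⟨d, rfl⟩ := orderOf_dvd_of_pow_eq_one hm
    rw [pow_mul, hν i, one_pow]
  have hα : ∀ i, α i ^ q = 1 := fun i => by
    simp only [α]; rw [← pow_mul]; exact hνpow i _ (by rw [pow_mul, hya, huq])
  have hβ : ∀ i, β i ^ p = 1 := fun i => by
    simp only [β]; rw [← pow_mul]; exact hνpow i _ (by rw [pow_mul, hyb, hwp])
  -- constancy on the cosets of the powers of `u`
  have hsec : ∀ j l : ℕ, ¬ p ∣ l → (χ : G → ℂ) (u ^ j * w ^ l) = (χ : G → ℂ) (w ^ l) := by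
    intro j l hl
    refine apply_section (hyp_of_prime hP) hM (mem_B0.mp hB) ⟨u ^ j, ?_, ?_, ⟨1, ?_⟩, ?_⟩
      (Subgroup.pow_mem _ w₀.2 l) ?_
    · exact ((hcom.pow_pow j l).eq).symm
    · exact (hcom.pow_pow j l).symm
    · rw [pow_one, (hp.out.coprime_iff_not_dvd.mpr hl |> fun h => (Nat.Coprime.orderOf_pow (how.symm ▸ h : (orderOf w).Coprime l))), how]
    · intro hd
      exact hqp ((Nat.prime_dvd_prime_iff_eq hp.out hq).mp (hd.trans (hou ▸ orderOf_pow_dvd j))).symm
    · intro h
      exact hl (how ▸ orderOf_dvd_of_pow_eq_one h)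
  -- the multiplicity of a nontrivial eigenvalue of `u` is divisible by `p`
  have hmult : ∀ ω : ℂ, ω ^ q = 1 → ω ≠ 1 → p ∣ (univ.filter fun i => α i = ω).card := by
    intro ω hωq hω1
    have hω0 : ω ≠ 0 := fun h => by simp [h, zero_pow hq.ne_zero] at hωq
    have hinvq : (ω⁻¹) ^ q = 1 := by rw [inv_pow, hωq, inv_one]
    have hl : ∀ l ∈ range p, l ≠ 0 → ∑ i ∈ univ.filter (fun i => α i = ω), β i ^ l = 0 := by
      intro l hl hl0
      have hnd : ¬ p ∣ l := fun hd => hl0 (Nat.eq_zero_of_dvd_of_lt hd (Finset.mem_range.mp hl))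
      have h1 : ∑ j ∈ range q, (ω⁻¹) ^ j * (χ : G → ℂ) (u ^ j * w ^ l)
          = ∑ i, β i ^ l * ∑ j ∈ range q, (α i * ω⁻¹) ^ j := by
        simp only [hval, Finset.mul_sum]
        rw [Finset.sum_comm]
        exact Finset.sum_congr rfl fun i _ => Finset.sum_congr rfl fun j _ => by rw [mul_pow]; ring
      have h2 : ∑ j ∈ range q, (ω⁻¹) ^ j * (χ : G → ℂ) (u ^ j * w ^ l) = 0 := by
        rw [Finset.sum_congr rfl (g := fun j => (ω⁻¹) ^ j * (χ : G → ℂ) (w ^ l))
          fun j _ => by rw [hsec j l hnd], ← Finset.sum_mul, geom_root hinvq,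
          if_neg (fun h => hω1 (inv_eq_one.mp h)), zero_mul]
      rw [h2, Finset.sum_congr rfl (g := fun i => if α i = ω then (q : ℂ) * β i ^ l else 0) fun i _ => by
        rw [geom_root (by rw [mul_pow, hα i, hinvq, mul_one])]
        by_cases h : α i = ω
        · rw [if_pos (by rw [h, mul_inv_cancel₀ hω0]), if_pos h]; ring
        · rw [if_neg (fun h' => h (mul_inv_eq_one₀ hω0 |>.mp h')), if_neg h, mul_zero],
        ← Finset.sum_filter, ← Finset.mul_sum] at h1
      exact (mul_eq_zero.mp h1.symm).resolve_left (Nat.cast_ne_zero.mpr hq.ne_zero)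
    set S := univ.filter fun i => α i = ω
    have h3 : ∑ l ∈ range p, ∑ i ∈ S, β i ^ l = (S.card : ℂ) := by
      rw [Finset.sum_eq_single 0 (fun l hl' hl0 => hl l hl' hl0)
        (fun h => absurd (Finset.mem_range.mpr hp.out.pos) h)]
      simp
    rw [Finset.sum_comm, Finset.sum_congr rfl fun i _ => geom_root (hβ i), ← Finset.sum_filter,
      Finset.sum_const, nsmul_eq_mul] at h3
    refine ⟨(S.filter fun i => β i = 1).card, ?_⟩
    have : ((S.filter fun i => β i = 1).card : ℂ) * p = (S.card : ℕ) := h3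
    rw [mul_comm]
    exact_mod_cast this.symm
  have hf' : Module.finrank ℂ (Fin n → ℂ) = f := by
    have h1 : σ.character 1 = Module.finrank ℂ (Fin n → ℂ) := Representation.char_one σ
    rw [hσ, hf] at h1
    exact_mod_cast h1.symm
  have hbu : ∀ i, σ u (b i) = α i • b i := fun i => by
    have := hpow ea i
    rwa [hya] at this
  have hu1 : u ≠ 1 := fun h => hq.ne_one (by rw [← hou, h, orderOf_one])
  by_cases hall : ∀ i, α i = 1
  · refine hne (eq_triv_of_ker hu1 ?_)
    have h1 := hval 1 0
    rw [pow_one, pow_zero, mul_one] at h1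
    rw [h1, hf, Finset.sum_congr rfl fun i _ => show α i ^ 1 * β i ^ 0 = 1 by simp [hall i]]
    simp [hf']
  push Not at hall
  obtain ⟨i₀, hi₀⟩ := hall
  set ω := α i₀
  set S := univ.filter fun i => α i = ω with hS
  have hSd : p ∣ S.card := hmult ω (hα i₀) hi₀
  have hSp : 0 < S.card := Finset.card_pos.mpr ⟨i₀, by simp [hS, ω]⟩
  have hSle : p ≤ S.card := Nat.le_of_dvd hSp hSd
  have hother : ∀ i, α i ≠ ω → α i = 1 := by
    intro i hi
    by_contra h1
    have hT := hmult (α i) (hα i) h1
    have hTp : 0 < (univ.filter fun k => α k = α i).card := Finset.card_pos.mpr ⟨i, by simp⟩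
    have hdisj : Disjoint S (univ.filter fun k => α k = α i) := by
      rw [Finset.disjoint_filter]
      exact fun k _ hk hk' => hi (hk'.symm.trans hk)
    have hle := Finset.card_le_univ (S ∪ univ.filter fun k => α k = α i)
    rw [Finset.card_union_of_disjoint hdisj, Fintype.card_fin] at hle
    have := Nat.le_of_dvd hTp hT
    omega
  have hScard : S.card = p := by
    obtain ⟨c, hc⟩ := hSd
    have hle := Finset.card_le_univ S
    rw [Fintype.card_fin] at hle
    rcases c with - | - | c
    · omega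
    · omega
    · exfalso; nlinarith
  obtain ⟨D, -, hD⟩ := exists_detHom χ.2.isCharacter
  have hdet := hD (Fin n → ℂ) σ hσ u
  rw [linear_trivial hG D u, Units.val_one, det_eq_prod_of_eigenbasis _ b α hbu,
    ← Finset.prod_filter_mul_prod_filter_not univ (fun i => α i = ω),
    Finset.prod_congr rfl fun i hi => (Finset.mem_filter.mp hi).2,
    Finset.prod_eq_one (s := univ.filter fun i => ¬ α i = ω) fun i hi => hother i (Finset.mem_filter.mp hi).2,
    mul_one, Finset.prod_const, hScard] at hdet
  have h1 : orderOf ω ∣ Nat.gcd q p := Nat.dvd_gcd (orderOf_dvd_of_pow_eq_one (hα i₀))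
    (orderOf_dvd_of_pow_eq_one hdet.symm)
  rw [(Nat.coprime_primes hq hp.out).mpr hqp] at h1
  exact hi₀ (orderOf_eq_one_iff.mp (Nat.eq_one_of_dvd_one h1))

end chars

end Cfsg.Lib.SimpleOrder.DefectOne
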