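import Cfsg.Agent.Lib.SimpleOrder.DefectOne

/-!
# Degrees in the principal block of a Sylow subgroup of prime order
-/

set_option autoImplicit false
set_option linter.unusedSectionVars false
set_option linter.style.longLine false
set_option linter.style.haveILetI false

namespace Cfsg.Lib.SimpleOrder.DefectOne

open Cfsg.Lib.Characters Cfsg.Lib.Blocks Cfsg.Lib.FreeNormalizer Finset
open scoped ComplexConjugate Classical

variable {G : Type*} [Group G] [Fintype G] {p : ℕ} [hp : Fact p.Prime] [IsSimpleGroup G]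
variable {M : Ideal Cfsg.AlgInt} [M.IsPrime] {P : Sylow p G}

omit [IsSimpleGroup G] in
theorem sum_sq_le (S : Finset (IrrCharacter G)) (d : IrrCharacter G → ℕ)
    (hd : ∀ χ ∈ S, (χ : G → ℂ) 1 = (d χ : ℂ)) : ∑ χ ∈ S, d χ ^ 2 ≤ Nat.card G := by
  choose D hD using fun χ : IrrCharacter G => exists_degree χ.2.isCharacter
  have h := sum_sq_degree (G := G)
  simp only [hD] at h
  have h' : ∑ χ : IrrCharacter G, D χ ^ 2 = Nat.card G := by exact_mod_cast h
  rw [← h', Finset.sum_congr rfl (g := fun χ => D χ ^ 2) fun χ hχ => by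
    rw [show d χ = D χ by exact_mod_cast (hd χ hχ).symm.trans (hD χ)]]
  exact Finset.sum_le_sum_of_subset (Finset.subset_univ S)

omit [IsSimpleGroup G] in
theorem not_dvd_one : ¬ p ∣ orderOf (1 : G) := by
  rw [orderOf_one]; exact fun h => hp.out.ne_one (Nat.dvd_one.mp h)

section exc

variable [Fintype (↥(P : Subgroup G) →* ℂˣ)] (E : Exc M P)

omit [IsSimpleGroup G] in
theorem oth_congr (hP : Nat.card (P : Subgroup G) = p) {χ : IrrCharacter G} (hχ : χ ∈ E.oth) {f : ℕ}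
    (hf : (χ : G → ℂ) 1 = f) : (p : ℤ) ∣ (f : ℤ) - E.av χ := by
  have h := hyp_of_prime hP
  have h1 := E.cc_oth_one h hχ
  rw [cc_eq, hf, hP] at h1
  have h2 := E.card_excS_mul h
  rw [hP] at h2
  have h3 : ((E.excS.card : ℂ) * Nat.card (aut P)) = (p : ℂ) - 1 := by
    rw [← Nat.cast_mul, h2, Nat.cast_sub hp.out.one_le, Nat.cast_one]
  refine ⟨coef χ (1 : ↥(P : Subgroup G) →* ℂˣ) - E.av χ, ?_⟩
  have h4 : (((f : ℤ) - E.av χ : ℤ) : ℂ) = (((p : ℤ) * (coef χ (1 : ↥(P : Subgroup G) →* ℂˣ) - E.av χ) : ℤ) : ℂ) := by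
    push_cast
    linear_combination (-1 : ℂ) * h1 - (E.av χ : ℂ) * h3
  exact_mod_cast h4

omit [IsSimpleGroup G] in
theorem exc_congr (hP : Nat.card (P : Subgroup G) = p) {η : IrrCharacter G} (hη : η ∈ E.excS) {f : ℕ}
    (hf : (η : G → ℂ) 1 = f) :
    (p : ℤ) ∣ (f : ℤ) + (Nat.card (aut P) : ℤ) * ((E.excS.card : ℤ) * E.dd - E.sgn) := by
  have h := hyp_of_prime hP
  have h1 := E.cc_mu_one h hη
  rw [cc_eq, hf, hP] at h1
  refine ⟨coef η (1 : ↥(P : Subgroup G) →* ℂˣ), ?_⟩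
  have h4 : (((f : ℤ) + (Nat.card (aut P) : ℤ) * ((E.excS.card : ℤ) * E.dd - E.sgn) : ℤ) : ℂ)
      = (((p : ℤ) * coef η (1 : ↥(P : Subgroup G) →* ℂˣ) : ℤ) : ℂ) := by
    push_cast
    linear_combination (-1 : ℂ) * h1
  exact_mod_cast h4

end exc

/-- The shape of the principal block for an automiser of order two. -/
theorem two_shape (hG : ¬ IsMulCommutative G) [Fintype (↥(P : Subgroup G) →* ℂˣ)] (hP : Nat.card (P : Subgroup G) = p)
    (hM : IsPModular p M) (hm : Nat.card (aut P) = 2) (hp5 : 5 ≤ p) :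
    ∃ E : Exc M P, ∃ χ : IrrCharacter G, χ ≠ trivChar G ∧ E.oth = {trivChar G, χ} ∧
      E.av (trivChar G) = 1 ∧ (E.av χ = 1 ∨ E.av χ = -1) ∧
      ((E.excS.card : ℤ) * E.dd - E.sgn = 1 ∨ (E.excS.card : ℤ) * E.dd - E.sgn = -1) := by
  have h := hyp_of_prime hP
  have hP1 : 1 < Nat.card ↥(P : Subgroup G) := by omega
  haveI : Nontrivial ↥(P : Subgroup G) := Finite.one_lt_card_iff_nontrivial.mp hP1
  obtain ⟨w₀, hw₀⟩ := exists_ne (1 : ↥(P : Subgroup G))
  obtain ⟨E⟩ := exists_exc h hM (by omega)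
  have hmul := E.card_excS_mul h
  rw [hm, hP] at hmul
  have hn := E.norm_id h hM hP1
  rw [hm] at hn
  push_cast at hn
  have htriv := E.av_triv hw₀
  have hsplit := Finset.sum_erase_add E.oth (fun χ => E.av χ ^ 2) E.triv_mem_oth
  set R := E.oth.erase (trivChar G) with hR
  have hge : (R.card : ℤ) ≤ ∑ χ ∈ R, E.av χ ^ 2 := by
    rw [Finset.card_eq_sum_ones, Nat.cast_sum, Nat.cast_one]
    refine Finset.sum_le_sum fun χ hχ => ?_
    have h0 := E.av_ne_zero h hM (Finset.mem_of_mem_erase hχ) (Finset.ne_of_mem_erase hχ)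
    nlinarith [Int.one_le_abs h0, sq_abs (E.av χ)]
  simp only [htriv, one_pow] at hsplit
  have he2 : (2 : ℤ) ≤ E.excS.card := by
    have : 2 ≤ E.excS.card := by omega
    exact_mod_cast this
  -- the constant
  have hdd : E.dd = 0 ∨ E.dd = E.sgn := by
    have hs := E.sgn_sq
    have hR0 : (0 : ℤ) ≤ ∑ χ ∈ R, E.av χ ^ 2 := Finset.sum_nonneg fun χ _ => sq_nonneg _
    have h2 : 2 * (E.dd * (E.dd - E.sgn)) ≤ 1 := by nlinarith [mul_le_mul_of_nonneg_right he2 (sq_nonneg E.dd)]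
    have h3 : 0 ≤ E.dd * (E.dd - E.sgn) := by
      rcases hs with e | e <;> rw [e] <;> rcases le_or_gt E.dd 0 with hd | hd
      · nlinarith
      · nlinarith
      · rcases eq_or_lt_of_le hd with hd0 | hd0
        · rw [hd0]; norm_num
        · nlinarith
      · nlinarith
    have h4 : E.dd * (E.dd - E.sgn) = 0 := by omega
    exact (mul_eq_zero.mp h4).imp id sub_eq_zero.mp
  obtain ⟨η, hη⟩ : E.excS.Nonempty := Finset.card_pos.mp (E.excS_card_pos h hP1)
  have hrel := E.regular_rel h hM hP1 hη (not_dvd_one (p := p))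
  obtain ⟨fη, hfη⟩ := exists_degree η.2.isCharacter
  have key : ∑ χ ∈ R, E.av χ ^ 2 = 1 ∧
      ((E.excS.card : ℤ) * E.dd - E.sgn = 1 ∨ (E.excS.card : ℤ) * E.dd - E.sgn = -1) := by
    rcases hdd with hd | hd
    · rw [hd] at hn ⊢
      refine ⟨by nlinarith, ?_⟩
      rcases E.sgn_sq with e | e <;> rw [e] <;> norm_num
    · rw [hd] at hn ⊢
      have hs1 : E.sgn ^ 2 = 1 := by rcases E.sgn_sq with e | e <;> rw [e] <;> norm_num
      have hR0 : (0 : ℤ) ≤ ∑ χ ∈ R, E.av χ ^ 2 := Finset.sum_nonneg fun χ _ => sq_nonneg _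
      have hn' : (∑ χ ∈ R, E.av χ ^ 2) + (E.excS.card : ℤ) = 3 := by nlinarith
      rcases (show (E.excS.card : ℤ) = 2 ∨ (E.excS.card : ℤ) = 3 by omega) with he | he
      · refine ⟨by omega, ?_⟩
        rw [he]
        rcases E.sgn_sq with e | e <;> rw [e] <;> norm_num
      · exfalso
        have hR1 : R.card = 0 := by omega
        rw [Finset.card_eq_zero] at hR1
        have hoth : E.oth = {trivChar G} := by
          rw [← Finset.insert_erase E.triv_mem_oth, ← hR, hR1]; rfl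
        rw [hoth, Finset.sum_singleton, htriv, trivChar_apply, Int.cast_one, mul_one, hfη, hd] at hrel
        have h5 : ((E.excS.card : ℤ) * E.sgn - E.sgn) * fη + 1 = 0 := by exact_mod_cast hrel
        rw [he] at h5
        rcases E.sgn_sq with e | e <;> rw [e] at h5 <;> omega
  have hRcard : R.card = 1 := by
    have h1 : R.card ≤ 1 := by omega
    rcases Nat.eq_zero_or_pos R.card with h0 | h0
    · rw [Finset.card_eq_zero.mp h0, Finset.sum_empty] at key
      exact absurd key.1 (by norm_num)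
    · omega
  obtain ⟨χ, hχ⟩ := Finset.card_eq_one.mp hRcard
  refine ⟨E, χ, Finset.ne_of_mem_erase (hχ ▸ Finset.mem_singleton_self χ : χ ∈ R), ?_, htriv, ?_, key.2⟩
  · rw [← Finset.insert_erase E.triv_mem_oth, ← hR, hχ]
  · have := key.1
    rw [hχ, Finset.sum_singleton] at this
    exact sq_eq_one_iff.mp this

/-- The two degrees for an automiser of order two. -/
theorem data_two (hG : ¬ IsMulCommutative G) (hP : Nat.card (P : Subgroup G) = p)
    (hM : IsPModular p M) (hm : Nat.card (aut P) = 2) (hp5 : 5 ≤ p) :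
    ∃ χ ∈ B0 (G := G) M, χ ≠ trivChar G ∧ ∃ (f f₀ : ℕ) (a s : ℤ), (χ : G → ℂ) 1 = f ∧
      (a = 1 ∨ a = -1) ∧ (s = 1 ∨ s = -1) ∧ 1 + a * f = s * f₀ ∧
      (p : ℤ) ∣ (f : ℤ) - a ∧ (p : ℤ) ∣ (f₀ : ℤ) - 2 * s ∧
      2 ≤ f ∧ 2 ≤ f₀ ∧ f ∣ Nat.card G ∧ f₀ ∣ Nat.card G ∧ 1 + f ^ 2 + f₀ ^ 2 ≤ Nat.card G := by
  have h := hyp_of_prime hP
  haveI := finite_hom_of_comm h.comm
  letI := Fintype.ofFinite (↥(P : Subgroup G) →* ℂˣ)
  obtain ⟨E, χ, hne, hoth, htriv, ha, hc⟩ := two_shape hG hP hM hm hp5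
  have hP1 : 1 < Nat.card ↥(P : Subgroup G) := by omega
  obtain ⟨η, hη⟩ : E.excS.Nonempty := Finset.card_pos.mp (E.excS_card_pos h hP1)
  have hχo : χ ∈ E.oth := by rw [hoth]; simp
  have hηne : η ≠ trivChar G := fun e => by
    obtain ⟨ψ, hψ, hψe⟩ := E.mem_excS.mp hη
    exact E.triv_X ψ hψ (hψe.trans e)
  have hηχ : η ≠ χ := fun e => by
    obtain ⟨ψ, hψ, hψe⟩ := E.mem_excS.mp hη
    exact (E.mem_oth.mp hχo).2 ψ hψ (hψe.trans e)
  obtain ⟨f, hf⟩ := exists_degree χ.2.isCharacter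
  obtain ⟨f₀, hf₀⟩ := exists_degree η.2.isCharacter
  have hrel := E.regular_rel h hM hP1 hη (not_dvd_one (p := p))
  rw [hoth, Finset.sum_pair (Ne.symm hne), htriv, hf, hf₀, trivChar_apply, Int.cast_one, mul_one] at hrel
  have hrel' : ((E.excS.card : ℤ) * E.dd - E.sgn) * f₀ + (1 + E.av χ * f) = 0 := by exact_mod_cast hrel
  refine ⟨χ, (E.mem_oth.mp hχo).1, hne, f, f₀, E.av χ, -((E.excS.card : ℤ) * E.dd - E.sgn), hf, ha, ?_, ?_,
    oth_congr E hP hχo hf, ?_, two_le_degree hG hne hf, two_le_degree hG hηne hf₀,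
    degree_dvd_card χ.2 hf, degree_dvd_card η.2 hf₀, ?_⟩
  · rcases hc with e | e <;> rw [e] <;> norm_num
  · linarith
  · have := exc_congr E hP hη hf₀
    rw [hm] at this
    convert this using 1
    push_cast; ring
  · have := sum_sq_le ({trivChar G, χ, η} : Finset (IrrCharacter G))
      (fun x => if x = trivChar G then 1 else if x = χ then f else f₀) (by
        intro x hx
        simp only [Finset.mem_insert, Finset.mem_singleton] at hx
        rcases hx with rfl | rfl | rfl <;> simp [hne, hηne, hηχ, hf, hf₀])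
    rw [Finset.sum_insert (by simp [Ne.symm hne, Ne.symm hηne]), Finset.sum_pair (Ne.symm hηχ)] at this
    simpa [hne, hηne, hηχ, add_assoc] using this

/-- The three degrees for an automiser of order three. -/
theorem data_three (hG : ¬ IsMulCommutative G) (hP : Nat.card (P : Subgroup G) = p)
    (hM : IsPModular p M) (hm : Nat.card (aut P) = 3) (hp7 : 7 ≤ p) :
    ∃ χ ∈ B0 (G := G) M, χ ≠ trivChar G ∧ ∃ ψ ∈ B0 (G := G) M, ψ ≠ trivChar G ∧
    ∃ (f g f₀ : ℕ) (a b s : ℤ), (χ : G → ℂ) 1 = f ∧ (ψ : G → ℂ) 1 = g ∧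
      (a = 1 ∨ a = -1) ∧ (b = 1 ∨ b = -1) ∧ (s = 1 ∨ s = -1) ∧ 1 + a * f + b * g = s * f₀ ∧
      (p : ℤ) ∣ (f : ℤ) - a ∧ (p : ℤ) ∣ (g : ℤ) - b ∧ (p : ℤ) ∣ (f₀ : ℤ) - 3 * s ∧
      2 ≤ f ∧ 2 ≤ g ∧ 2 ≤ f₀ ∧ f ∣ Nat.card G ∧ g ∣ Nat.card G ∧ f₀ ∣ Nat.card G ∧
      1 + f ^ 2 + g ^ 2 ≤ Nat.card G := by
  have h := hyp_of_prime hP
  haveI := finite_hom_of_comm h.comm
  letI := Fintype.ofFinite (↥(P : Subgroup G) →* ℂˣ)
  obtain ⟨E, hd, hcard, hav⟩ := exists_exc_three h hM hm (by omega)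
  have hP1 : 1 < Nat.card ↥(P : Subgroup G) := by omega
  haveI : Nontrivial ↥(P : Subgroup G) := Finite.one_lt_card_iff_nontrivial.mp hP1
  obtain ⟨w₀, hw₀⟩ := exists_ne (1 : ↥(P : Subgroup G))
  have htriv := E.av_triv hw₀
  have hR : (E.oth.erase (trivChar G)).card = 2 := by
    rw [Finset.card_erase_of_mem E.triv_mem_oth, hcard]
  obtain ⟨χ, ψ, hχψ, hRe⟩ := Finset.card_eq_two.mp hR
  have hχR : χ ∈ E.oth.erase (trivChar G) := by rw [hRe]; simp
  have hψR : ψ ∈ E.oth.erase (trivChar G) := by rw [hRe]; simp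
  obtain ⟨hχ1, hχo⟩ := Finset.mem_erase.mp hχR
  obtain ⟨hψ1, hψo⟩ := Finset.mem_erase.mp hψR
  have hoth : E.oth = insert (trivChar G) {χ, ψ} := by
    rw [← hRe, Finset.insert_erase E.triv_mem_oth]
  obtain ⟨η, hη⟩ : E.excS.Nonempty := Finset.card_pos.mp (E.excS_card_pos h hP1)
  have hηne : η ≠ trivChar G := fun e => by
    obtain ⟨φ, hφ, hφe⟩ := E.mem_excS.mp hη
    exact E.triv_X φ hφ (hφe.trans e)
  obtain ⟨f, hf⟩ := exists_degree χ.2.isCharacter
  obtain ⟨g, hg⟩ := exists_degree ψ.2.isCharacter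
  obtain ⟨f₀, hf₀⟩ := exists_degree η.2.isCharacter
  have hrel := E.regular_rel h hM hP1 hη (not_dvd_one (p := p))
  rw [hoth, Finset.sum_insert (by simp [Ne.symm hχ1, Ne.symm hψ1]), Finset.sum_pair hχψ, htriv, hf, hg,
    hf₀, hd, trivChar_apply, Int.cast_one, mul_one] at hrel
  have hrel' : (-E.sgn) * (f₀ : ℤ) + (1 + (E.av χ * f + E.av ψ * g)) = 0 := by
    have : ((((-E.sgn) * (f₀ : ℤ) + (1 + (E.av χ * f + E.av ψ * g))) : ℤ) : ℂ) = 0 := by
      rw [← hrel]; push_cast; ring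
    exact_mod_cast this
  refine ⟨χ, (E.mem_oth.mp hχo).1, hχ1, ψ, (E.mem_oth.mp hψo).1, hψ1, f, g, f₀, E.av χ, E.av ψ, E.sgn,
    hf, hg, hav χ hχo, hav ψ hψo, E.sgn_sq, by linarith, oth_congr E hP hχo hf, oth_congr E hP hψo hg, ?_,
    two_le_degree hG hχ1 hf, two_le_degree hG hψ1 hg, two_le_degree hG hηne hf₀,
    degree_dvd_card χ.2 hf, degree_dvd_card ψ.2 hg, degree_dvd_card η.2 hf₀, ?_⟩
  · have := exc_congr E hP hη hf₀
    rw [hm, hd] at this
    convert this using 1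
    push_cast; ring
  · have := sum_sq_le ({trivChar G, χ, ψ} : Finset (IrrCharacter G))
      (fun x => if x = trivChar G then 1 else if x = χ then f else g) (by
        intro x hx
        simp only [Finset.mem_insert, Finset.mem_singleton] at hx
        rcases hx with rfl | rfl | rfl <;> simp [hχ1, hψ1, Ne.symm hχψ, hf, hg])
    rw [Finset.sum_insert (by simp [Ne.symm hχ1, Ne.symm hψ1]), Finset.sum_pair hχψ] at this
    simpa [hχ1, hψ1, Ne.symm hχψ, add_assoc] using this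

/-- For `p = 5` with full automiser some nontrivial character in the principal block has odd degree
congruent to `±1`. -/
theorem data_four [Fact (Nat.Prime 5)] {M : Ideal Cfsg.AlgInt} [M.IsPrime] {P : Sylow 5 G}
    (hG : ¬ IsMulCommutative G) (hP : Nat.card (P : Subgroup G) = 5)
    (hM : IsPModular 5 M) (hm : Nat.card (aut P) = 4) :
    ∃ χ ∈ B0 (G := G) M, χ ≠ trivChar G ∧ ∃ f : ℕ, (χ : G → ℂ) 1 = f ∧
      2 ≤ f ∧ f % 2 = 1 ∧ (f % 5 = 1 ∨ f % 5 = 4) ∧ f ∣ Nat.card G ∧ 1 + f ^ 2 ≤ Nat.card G := by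
  have h := hyp_of_prime hP
  haveI : Nontrivial ↥(P : Subgroup G) := Finite.one_lt_card_iff_nontrivial.mp (by omega)
  obtain ⟨w₀, hw₀⟩ := exists_ne (1 : ↥(P : Subgroup G))
  have htrans : ∀ w : ↥(P : Subgroup G), w ≠ 1 → ∃ e : aut P, (e : MulAut ↥(P : Subgroup G)) w₀ = w := by
    let φ : aut P → {w : ↥(P : Subgroup G) // w ≠ 1} := fun e =>
      ⟨(e : MulAut ↥(P : Subgroup G)) w₀, fun h1 => hw₀ ((map_eq_one_iff _ (MulEquiv.injective _)).mp h1)⟩
    have hinj : Function.Injective φ := fun e e' he => by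
      have he' : (e : MulAut ↥(P : Subgroup G)) w₀ = (e' : MulAut ↥(P : Subgroup G)) w₀ := congrArg Subtype.val he
      have h2 := aut_free h (e'⁻¹ * e).2 hw₀ (by
        show (e' : MulAut ↥(P : Subgroup G)).symm ((e : MulAut ↥(P : Subgroup G)) w₀) = w₀
        rw [he', MulEquiv.symm_apply_apply])
      exact (inv_mul_eq_one.mp (Subtype.ext h2)).symm
    have hcard : Nat.card (aut P) = Nat.card {w : ↥(P : Subgroup G) // w ≠ 1} := by
      rw [hm, Nat.card_eq_fintype_card, Fintype.card_subtype_compl, Fintype.card_subtype_eq,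
        ← Nat.card_eq_fintype_card, hP]
    intro w hw
    obtain ⟨e, he⟩ := ((Nat.bijective_iff_injective_and_card φ).mpr ⟨hinj, hcard⟩).2 ⟨w, hw⟩
    exact ⟨e, congrArg Subtype.val he⟩
  have hconst : ∀ (χ : IrrCharacter G) (w : ↥(P : Subgroup G)), w ≠ 1 → (χ : G → ℂ) w = (χ : G → ℂ) w₀ :=
    fun χ w hw => (char_eq_of_isConj χ ((isConj_iff_aut h w₀ w).mpr (htrans w hw))).symm
  have hcc : ∀ χ : IrrCharacter G, cc χ (1 : ↥(P : Subgroup G) →* ℂˣ) = 4 * (χ : G → ℂ) w₀ := by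
    intro χ
    rw [cc, Finset.sum_congr rfl (g := fun _ => (χ : G → ℂ) w₀) fun w hw => by
      rw [hconst χ w (Finset.mem_erase.mp hw).1]; simp,
      Finset.sum_const, Finset.card_erase_of_mem (Finset.mem_univ _), Finset.card_univ,
      ← Nat.card_eq_fintype_card, hP, nsmul_eq_mul]
    norm_num
  have hint : ∀ χ : IrrCharacter G, ∃ v : ℤ, (χ : G → ℂ) w₀ = v := by
    intro χ
    obtain ⟨f, hf⟩ := exists_degree χ.2.isCharacter
    have h1 : (χ : G → ℂ) w₀ = (((5 * (coef χ (1 : ↥(P : Subgroup G) →* ℂˣ) : ℚ) - f) / 4 : ℚ) : ℂ) := by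
      have h2 := hcc χ
      rw [cc_eq, hP, hf] at h2
      push_cast
      push_cast at h2
      linear_combination (-1 / 4 : ℂ) * h2
    obtain ⟨v, hv⟩ := exists_int_of_isIntegral (h1 ▸ char_isIntegral χ.2.isCharacter _)
    exact ⟨v, h1.trans hv⟩
  choose v hv using hint
  choose D hD using fun χ : IrrCharacter G => exists_degree χ.2.isCharacter
  have hsq : ∑ χ ∈ B0 (G := G) M, v χ ^ 2 = 5 := by
    have h1 := kerB_sylow h hM (w' := w₀) hw₀
    rw [if_pos (IsConj.refl _), ← sum_B0_mul, hP] at h1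
    simp only [hv, map_intCast] at h1
    have h2 : ((∑ χ ∈ B0 (G := G) M, v χ ^ 2 : ℤ) : ℂ) = ((5 : ℤ) : ℂ) := by
      push_cast
      simpa [sq] using h1
    exact_mod_cast h2
  have hlin : ∑ χ ∈ B0 (G := G) M, v χ * (D χ : ℤ) = 0 := by
    have h1 := sum_one_mul_cc hM (1 : ↥(P : Subgroup G) →* ℂˣ) (not_dvd_one (p := 5)) (P := P)
    simp only [hcc, hv, hD] at h1
    have h2 : ((4 * ∑ χ ∈ B0 (G := G) M, v χ * (D χ : ℤ) : ℤ) : ℂ) = 0 := by
      push_cast
      rw [Finset.mul_sum, ← h1]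
      exact Finset.sum_congr rfl fun χ _ => by ring
    have h3 : 4 * ∑ χ ∈ B0 (G := G) M, v χ * (D χ : ℤ) = 0 := by exact_mod_cast h2
    omega
  have ht : trivChar G ∈ B0 (G := G) M := mem_B0.mpr trivChar_mem_principal
  have hv1 : v (trivChar G) = 1 := by exact_mod_cast ((hv (trivChar G)).symm.trans (trivChar_apply _))
  have hD1 : D (trivChar G) = 1 := by exact_mod_cast ((hD (trivChar G)).symm.trans (trivChar_apply _))
  obtain ⟨χ, hχB, hodd⟩ : ∃ χ ∈ (B0 (G := G) M).erase (trivChar G), v χ * (D χ : ℤ) % 2 = 1 := by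
    by_contra! hall
    rw [← Finset.add_sum_erase _ _ ht, hv1, hD1] at hlin
    have h2 : (2 : ℤ) ∣ ∑ χ ∈ (B0 (G := G) M).erase (trivChar G), v χ * (D χ : ℤ) :=
      Finset.dvd_sum fun χ hχ => by have := hall χ hχ; omega
    push_cast at hlin
    omega
  obtain ⟨hne, hB⟩ := Finset.mem_erase.mp hχB
  have hvle : 1 + v χ ^ 2 ≤ 5 := by
    have := Finset.sum_le_sum_of_subset_of_nonneg (s := {trivChar G, χ}) (f := fun x => v x ^ 2)
      (Finset.insert_subset ht (Finset.singleton_subset_iff.mpr hB)) (fun x _ _ => sq_nonneg (v x))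
    rwa [Finset.sum_pair (Ne.symm hne), hv1, hsq, one_pow] at this
  have hvodd : v χ % 2 = 1 ∧ (D χ : ℤ) % 2 = 1 := by
    rw [Int.mul_emod] at hodd
    rcases Int.emod_two_eq_zero_or_one (v χ) with e | e <;>
      rcases Int.emod_two_eq_zero_or_one (D χ : ℤ) with e' | e' <;> simp [e, e'] at hodd ⊢
  have hv' : v χ = 1 ∨ v χ = -1 := by
    have h1 : -2 ≤ v χ ∧ v χ ≤ 2 := by constructor <;> nlinarith
    omega
  refine ⟨χ, hB, hne, D χ, hD χ, two_le_degree hG hne (hD χ), by omega, ?_, degree_dvd_card χ.2 (hD χ), ?_⟩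
  · have h2 := hcc χ
    rw [cc_eq, hP, hD, hv] at h2
    have h3 : 5 * coef χ (1 : ↥(P : Subgroup G) →* ℂˣ) - (D χ : ℤ) = 4 * v χ := by
      have h4 : ((5 * coef χ (1 : ↥(P : Subgroup G) →* ℂˣ) - (D χ : ℤ) : ℤ) : ℂ) = ((4 * v χ : ℤ) : ℂ) := by
        push_cast at h2 ⊢
        linear_combination h2
      exact Int.cast_injective h4
    omega
  · have := sum_sq_le ({trivChar G, χ} : Finset (IrrCharacter G)) D (fun x _ => hD x)
    rwa [Finset.sum_pair (Ne.symm hne), hD1, one_pow] at this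

end Cfsg.Lib.SimpleOrder.DefectOne
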