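import Cfsg.Agent.Lib.SimpleOrder.DefectOneData
import Cfsg.Agent.Lib.ZStar.Facts
import Cfsg.Agent.Lib.Blocks.FreeNormalizerInvolution

/-!
# Involutions when a Sylow subgroup of prime order has dihedral normaliser
-/

set_option autoImplicit false
set_option linter.unusedSectionVars false
set_option linter.style.longLine false
set_option linter.style.haveILetI false

namespace Cfsg.Lib.SimpleOrder.DefectOne

open Cfsg.Lib.Characters Cfsg.Lib.Blocks Cfsg.Lib.FreeNormalizer Finset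
open scoped ComplexConjugate Classical

variable {G : Type*} [Group G] [Fintype G]

/-- A finite group of even order has an involution whose centraliser contains a Sylow 2-subgroup. -/
theorem exists_central_involution [Fact (Nat.Prime 2)] (h2 : 2 ∣ Nat.card G) :
    ∃ z : G, orderOf z = 2 ∧ ¬ 2 ∣ (Subgroup.centralizer ({z} : Set G)).index := by
  obtain ⟨S⟩ : Nonempty (Sylow 2 G) := inferInstance
  haveI : Nontrivial ↥(S : Subgroup G) :=
    (Subgroup.nontrivial_iff_ne_bot _).mpr (S.ne_bot_of_dvd_card h2)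
  haveI := S.isPGroup'.center_nontrivial
  obtain ⟨z, hz⟩ := exists_prime_orderOf_dvd_card' (G := Subgroup.center ↥(S : Subgroup G)) 2
    (by
      obtain ⟨n, hn0, hn⟩ := (S.isPGroup'.to_subgroup (Subgroup.center ↥(S : Subgroup G))).nontrivial_iff_card.mp inferInstance
      rw [hn]
      exact dvd_pow_self 2 (by omega))
  refine ⟨((z : ↥(S : Subgroup G)) : G), by rw [Subgroup.orderOf_coe, Subgroup.orderOf_coe, hz],
    fun hd => S.not_dvd_index (hd.trans (Subgroup.index_dvd_of_le ?_))⟩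
  intro s hs
  rw [Subgroup.mem_centralizer_singleton_iff]
  exact congrArg Subtype.val (Subgroup.mem_center_iff.mp z.2 ⟨s, hs⟩)

variable {p : ℕ} [hp : Fact p.Prime] [IsSimpleGroup G]
variable {M : Ideal Cfsg.AlgInt} [M.IsPrime] {P : Sylow p G}

omit [IsSimpleGroup G] in
/-- Characters outside the principal block vanish on a self-centralising Sylow subgroup of order `p`. -/
theorem eq_zero_outside (hP : Nat.card (P : Subgroup G) = p)
    (hC : Subgroup.centralizer ((P : Subgroup G) : Set G) = (P : Subgroup G))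
    (hM : IsPModular p M) {w : ↥(P : Subgroup G)} (hw : w ≠ 1) {χ : IrrCharacter G} (hχ : χ ∉ B0 M) :
    (χ : G → ℂ) w = 0 := by
  have hw' : (w : G) ≠ 1 := fun h => hw (Subtype.ext h)
  have h1 := column_orthogonality (w : G) (w : G)
  rw [if_pos (IsConj.refl _)] at h1
  have h2 := kerB_sylow (hyp_of_prime hP) hM (w' := w) hw
  rw [if_pos (IsConj.refl _), ← sum_B0_mul] at h2
  have hcard : Nat.card (Subgroup.centralizer ({(w : G)} : Set G)) = Nat.card ↥(P : Subgroup G) := by
    rw [centralizer_eq hP w.2 hw', hC]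
  rw [hcard, ← h2, ← Finset.sum_sdiff (Finset.subset_univ (B0 (G := G) M)), add_eq_right] at h1
  have h3 : ∀ ψ : IrrCharacter G, (ψ : G → ℂ) w * conj ((ψ : G → ℂ) w) = (Complex.normSq ((ψ : G → ℂ) w) : ℂ) :=
    fun ψ => Complex.mul_conj _
  simp only [h3, ← Complex.ofReal_sum, Complex.ofReal_eq_zero] at h1
  rw [Finset.sum_eq_zero_iff_of_nonneg (fun ψ _ => Complex.normSq_nonneg _)] at h1
  exact Complex.normSq_eq_zero.mp (h1 χ (Finset.mem_sdiff.mpr ⟨Finset.mem_univ _, hχ⟩))

/-- With dihedral normaliser of a Sylow subgroup of order `p` there is a single class of involutions and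
the order of the group is bounded through the two degrees in the principal block. -/
theorem two_involutions (hG : ¬ IsMulCommutative G) (hP : Nat.card (P : Subgroup G) = p)
    (hC : Subgroup.centralizer ((P : Subgroup G) : Set G) = (P : Subgroup G))
    (hM : IsPModular p M) (hm : Nat.card (aut P) = 2) (hp5 : 5 ≤ p) :
    ∃ (f f₀ k : ℕ) (a s : ℤ), (a = 1 ∨ a = -1) ∧ (s = 1 ∨ s = -1) ∧ 1 + a * f = s * f₀ ∧
      (p : ℤ) ∣ (f : ℤ) - a ∧ (p : ℤ) ∣ (f₀ : ℤ) - 2 * s ∧ 2 ≤ f ∧ 2 ≤ f₀ ∧ f ∣ Nat.card G ∧ f₀ ∣ Nat.card G ∧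
      1 + f ^ 2 + f₀ ^ 2 ≤ Nat.card G ∧
      k ∣ Nat.card G ∧ ¬ 2 ∣ k ∧ p * Nat.card G * f * f₀ ≤ k ^ 2 * (4 * f ^ 2) := by
  have h := hyp_of_prime hP
  haveI := finite_hom_of_comm h.comm
  letI := Fintype.ofFinite (↥(P : Subgroup G) →* ℂˣ)
  haveI : Fact (Nat.Prime 2) := ⟨Nat.prime_two⟩
  obtain ⟨E, χ, hne, hoth, htriv, ha, hc⟩ := two_shape hG hP hM hm hp5
  have hP1 : 1 < Nat.card ↥(P : Subgroup G) := by omega
  haveI : Nontrivial ↥(P : Subgroup G) := Finite.one_lt_card_iff_nontrivial.mp hP1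
  obtain ⟨w₀, hw₀⟩ := exists_ne (1 : ↥(P : Subgroup G))
  obtain ⟨η, hη⟩ : E.excS.Nonempty := Finset.card_pos.mp (E.excS_card_pos h hP1)
  have hχo : χ ∈ E.oth := by rw [hoth]; simp
  have hηne : η ≠ trivChar G := fun e => by
    obtain ⟨ψ, hψ, hψe⟩ := E.mem_excS.mp hη
    exact E.triv_X ψ hψ (hψe.trans e)
  have hηχ : η ≠ χ := fun e => by
    obtain ⟨ψ, hψ, hψe⟩ := E.mem_excS.mp hη
    exact (E.mem_oth.mp hχo).2 ψ hψ (hψe.trans e)
  obtain ⟨f, hf⟩ := exists_degree χ.2.isCharacter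
  obtain ⟨f₀, hf₀⟩ := exists_degree η.2.isCharacter
  set c : ℤ := (E.excS.card : ℤ) * E.dd - E.sgn with hcdef
  have hcC : (c : ℂ) = (E.excS.card : ℂ) * E.dd - E.sgn := by rw [hcdef]; push_cast; ring
  have hrel1 := E.regular_rel h hM hP1 hη (not_dvd_one (p := p))
  rw [hoth, Finset.sum_pair (Ne.symm hne), htriv, hf, hf₀, trivChar_apply, Int.cast_one, mul_one, ← hcC] at hrel1
  have hrel' : c * f₀ + (1 + E.av χ * f) = 0 := by exact_mod_cast hrel1
  have hexc : ∑ η' ∈ E.excS, (η' : G → ℂ) w₀ = c := by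
    have h1 := sum_orbSum_eq h E hw₀
    rw [Finset.sum_sub_distrib, Finset.sum_const, nsmul_eq_mul] at h1
    rw [hcC]; linear_combination h1
  have hw₀' : (w₀ : G) ≠ 1 := fun hh => hw₀ (Subtype.ext hh)
  -- the complement of `P` in its normaliser
  set N := Subgroup.normalizer ((P : Subgroup G) : Set G)
  have hNcard : Nat.card N = 2 * p := by rw [← card_normalizer hP, hC, hP, hm, mul_comm]
  have hPN : (P : Subgroup G) ≤ N := Subgroup.le_normalizer
  have hNout : ∀ a : G, a ∈ N → a ∉ (P : Subgroup G) → orderOf a = 2 := by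
    intro a ha hap
    have hidx : ((P : Subgroup G).subgroupOf N).index = 2 := by
      have h1 := ((P : Subgroup G).subgroupOf N).card_mul_index
      rw [Nat.card_congr (Subgroup.subgroupOfEquivOfLe hPN).toEquiv, hP, hNcard, mul_comm 2] at h1
      exact Nat.eq_of_mul_eq_mul_left hp.out.pos h1
    haveI : ((P : Subgroup G).subgroupOf N).Normal := Subgroup.normal_of_index_eq_two hidx
    have hsq : a ^ 2 ∈ (P : Subgroup G) := Subgroup.mul_self_mem_of_index_two hidx ⟨a, ha⟩ |> fun h' => by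
      rw [sq]; exact h'
    refine orderOf_eq_prime ?_ fun h1 => hap (h1 ▸ one_mem _)
    by_contra hsq1
    apply hap
    rw [← hC, ← centralizer_eq hP hsq hsq1, Subgroup.mem_centralizer_singleton_iff]
    rw [sq, mul_assoc]
  have hconjP : ∀ a : G, a ∈ N → a ∉ (P : Subgroup G) → ∀ v ∈ (P : Subgroup G), a * v * a⁻¹ = v⁻¹ := by
    intro a ha hap v hv
    have ha2 : a * a = 1 := by rw [← sq, ← hNout a ha hap]; exact pow_orderOf_eq_one a
    have hai : a⁻¹ = a := inv_eq_of_mul_eq_one_right ha2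
    have hb : a * v * a⁻¹ ∈ (P : Subgroup G) := (Subgroup.mem_normalizer_iff.mp ha v).mp hv
    by_contra hne1
    have hbv : a * v * a⁻¹ * v ≠ 1 := fun e => hne1 (eq_inv_of_mul_eq_one_left e)
    apply hap
    rw [← hC, ← centralizer_eq hP (mul_mem hb hv) hbv, Subgroup.mem_centralizer_singleton_iff]
    have hcomm : a * v * a⁻¹ * v = v * (a * v * a⁻¹) :=
      congrArg Subtype.val (h.comm ⟨_, hb⟩ ⟨v, hv⟩)
    calc a * (a * v * a⁻¹ * v) = (a * a) * v * a⁻¹ * v := by group
      _ = v * (a * v) := by rw [ha2, one_mul, hai, mul_assoc]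
      _ = v * (a * v * (a * a)) := by rw [ha2, mul_one]
      _ = (v * (a * v * a⁻¹)) * a := by rw [hai]; group
      _ = _ := by rw [← hcomm]
  have hall : ∀ t : G, orderOf t = 2 → ∀ a : G, a ∈ N → a ∉ (P : Subgroup G) → IsConj t a →
      ∀ a' : G, a' ∈ N → a' ∉ (P : Subgroup G) → IsConj t a' := by
    intro t _ a ha hap hta a' ha' hap'
    have hw : a * a' ∈ (P : Subgroup G) := by
      have ha2 : a * a = 1 := by rw [← sq, ← hNout a ha hap]; exact pow_orderOf_eq_one a
      have hidx : ((P : Subgroup G).subgroupOf N).index = 2 := by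
        have h1 := ((P : Subgroup G).subgroupOf N).card_mul_index
        rw [Nat.card_congr (Subgroup.subgroupOfEquivOfLe hPN).toEquiv, hP, hNcard, mul_comm 2] at h1
        exact Nat.eq_of_mul_eq_mul_left hp.out.pos h1
      exact (Subgroup.mul_mem_iff_of_index_two hidx (a := ⟨a, ha⟩) (b := ⟨a', ha'⟩)).mpr
        (iff_of_false hap hap')
    -- a square root of `a * a'` in `P`
    obtain ⟨k, hk⟩ := (hp.out.odd_of_ne_two (by omega))
    have hwp : (a * a') ^ p = 1 := by
      rw [← hP]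
      exact orderOf_dvd_iff_pow_eq_one.mp (Subgroup.orderOf_dvd_natCard _ hw)
    set v := (a * a') ^ (k + 1)
    have hv : v ∈ (P : Subgroup G) := pow_mem hw _
    have hv2 : v * v = a * a' := by
      rw [← pow_add, show k + 1 + (k + 1) = p + 1 by omega, pow_succ, hwp, one_mul]
    have ha2 : a * a = 1 := by rw [← sq, ← hNout a ha hap]; exact pow_orderOf_eq_one a
    refine hta.trans (isConj_iff.mpr ⟨v⁻¹, ?_⟩)
    have h1 := hconjP a ha hap v⁻¹ (inv_mem hv)
    rw [inv_inv] at h1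
    calc v⁻¹ * a * v⁻¹⁻¹ = (a * a) * v⁻¹ * a * v := by rw [ha2, inv_inv]; group
      _ = a * ((a * v⁻¹ * a⁻¹) * v) := by
          rw [show a⁻¹ = a from inv_eq_of_mul_eq_one_right ha2]; group
      _ = a * (v * v) := by rw [h1]
      _ = a' := by rw [hv2, ← mul_assoc, ha2, one_mul]
  -- products of two conjugates equal to the chosen element
  have hpair : ∀ t : G, orderOf t = 2 → ∀ a : G, IsConj t a → IsConj t (a⁻¹ * w₀) →
      a ∈ N ∧ a ∉ (P : Subgroup G) := by
    intro t ht a ha hb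
    have hia := involution_of_isConj ht ha
    have hib := involution_of_isConj ht hb
    have hx : a * (w₀ : G) * a⁻¹ = ((w₀ : G))⁻¹ := by
      rw [mul_inv_rev, inv_inv] at hib
      calc a * (w₀ : G) * a⁻¹ = a⁻¹ * (w₀ : G) * a⁻¹ := by rw [hia]
        _ = ((w₀ : G)⁻¹ * a) * a⁻¹ := by rw [← hib]
        _ = _ := by group
    refine ⟨?_, fun hap => ?_⟩
    · rw [Subgroup.mem_normalizer_iff]
      have hmap : (P : Subgroup G).map (MulAut.conj a).toMonoidHom = (P : Subgroup G) := by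
        rw [← (zpowers_eq hP w₀.2 hw₀').1, MonoidHom.map_zpowers]
        show Subgroup.zpowers (a * (w₀ : G) * a⁻¹) = _
        rw [hx, Subgroup.zpowers_inv]
      intro g
      conv_rhs => rw [← hmap]
      exact (Subgroup.mem_map_iff_mem (f := (MulAut.conj a).toMonoidHom) (MulAut.conj a).injective).symm
    · have h1 : a * (w₀ : G) * a⁻¹ = w₀ := by
        have := congrArg Subtype.val (h.comm ⟨a, hap⟩ w₀)
        rw [show a * (w₀ : G) = (w₀ : G) * a from this, mul_inv_cancel_right]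
      rw [hx] at h1
      have h2 : (w₀ : G) * w₀ = 1 := by nth_rw 1 [← h1]; exact inv_mul_cancel _
      have h3 : orderOf (w₀ : G) ∣ 2 := orderOf_dvd_of_pow_eq_one (by rw [sq, h2])
      rw [(zpowers_eq hP w₀.2 hw₀').2] at h3
      have := Nat.le_of_dvd (by norm_num) h3
      omega
  -- the class algebra coefficient
  have hformula : ∀ t : G, orderOf t = 2 → ∃ (K : ℕ) (X : ℤ),
      (Subgroup.centralizer ({t} : Set G)).index = K ∧ (χ : G → ℂ) t = X ∧ |X| ≤ f ∧ X ≠ f ∧
      ((univ.filter fun a => IsConj t a ∧ IsConj t (a⁻¹ * w₀)).card : ℤ) * (Nat.card G * f * f₀)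
        = (K : ℤ) ^ 2 * ((-c) * E.av χ * ((X : ℤ) - f) ^ 2) := by
    intro t ht
    obtain ⟨X, hX, -, hXle⟩ := Cfsg.Lib.ZStar.exists_int_involution χ ht
    have hdeg : Cfsg.charDegree (χ : G → ℂ) = f := by simp [Cfsg.charDegree, hf]
    rw [hdeg] at hXle
    have ht1 : t ≠ 1 := fun e => by rw [e, orderOf_one] at ht; omega
    refine ⟨_, X, rfl, hX, hXle, fun e => hne (eq_triv_of_ker ht1 (by rw [hX, hf, e, Int.cast_natCast])), ?_⟩
    set K := (Subgroup.centralizer ({t} : Set G)).index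
    have hK := Cfsg.Lib.Blocks.isClassElt_classSum (G := G) ℂ t
    have hcoeff : (classSum ℂ t * classSum ℂ t).coeff (w₀ : G)
        = ((univ.filter fun a => IsConj t a ∧ IsConj t (a⁻¹ * w₀)).card : ℂ) := by
      rw [gr_mul_apply]
      simp only [coeff_classSum, ite_mul, one_mul, zero_mul, ← ite_and]
      rw [Finset.sum_boole]
    rw [coeff_eq_sum_omega (hK.mul hK)] at hcoeff
    have hterm : ∀ ψ : IrrCharacter G, omega ψ (classSum ℂ t * classSum ℂ t) *
        ((ψ : G → ℂ) 1 * conj ((ψ : G → ℂ) w₀))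
        = (K : ℂ) ^ 2 * conj ((ψ : G → ℂ) t ^ 2 / (ψ : G → ℂ) 1 * (ψ : G → ℂ) w₀) := by
      intro ψ
      rw [omega_mul ψ hK hK, omega_classSum, Cfsg.centralChar]
      obtain ⟨b, hb⟩ := exists_int_value (χ := ψ) ht
      have h1 : (ψ : G → ℂ) 1 ≠ 0 := ψ.2.one_ne_zero
      rw [map_mul, map_div₀, map_pow, hb, map_intCast, conj_char_one ψ.2.isCharacter]
      field_simp
      ring
    rw [Finset.sum_congr rfl fun ψ _ => hterm ψ, ← Finset.mul_sum, ← map_sum] at hcoeff
    have hY : (η : G → ℂ) t * c + (1 + E.av χ * X) = 0 := by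
      have h1 := E.regular_rel h hM hP1 hη (g := t) (fun hd => by
        rw [ht] at hd
        have := Nat.le_of_dvd (by norm_num) hd
        omega)
      rw [hoth, Finset.sum_pair (Ne.symm hne), htriv, hX, trivChar_apply, Int.cast_one, mul_one, ← hcC] at h1
      linear_combination h1
    have hsum : ∑ ψ : IrrCharacter G, (ψ : G → ℂ) t ^ 2 / (ψ : G → ℂ) 1 * (ψ : G → ℂ) w₀
        = 1 + (E.av χ : ℂ) * (X : ℂ) ^ 2 / f + (c : ℂ) * (η : G → ℂ) t ^ 2 / f₀ := by
      rw [← Finset.sum_subset (Finset.subset_univ (B0 (G := G) M)) fun ψ _ hψ => by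
        rw [eq_zero_outside hP hC hM hw₀ hψ, mul_zero]]
      rw [E.sum_B0_split, hoth, Finset.sum_pair (Ne.symm hne), trivChar_apply, trivChar_apply, trivChar_apply,
        E.val_X χ (E.mem_oth.mp hχo).1 (E.mem_oth.mp hχo).2 w₀ hw₀, hX, hf,
        Finset.sum_congr (s₁ := E.excS) rfl (g := fun η' => (η : G → ℂ) t ^ 2 / f₀ * (η' : G → ℂ) w₀)
          fun η' hη' => by
          rw [E.excS_regular h hM hη' hη (g := t) (fun hd => by
              rw [ht] at hd
              have := Nat.le_of_dvd (by norm_num) hd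
              omega),
            E.excS_regular h hM hη' hη (not_dvd_one (p := p)), hf₀],
        ← Finset.mul_sum, hexc]
      ring
    have hreal : conj (∑ ψ : IrrCharacter G, (ψ : G → ℂ) t ^ 2 / (ψ : G → ℂ) 1 * (ψ : G → ℂ) w₀)
        = ∑ ψ : IrrCharacter G, (ψ : G → ℂ) t ^ 2 / (ψ : G → ℂ) 1 * (ψ : G → ℂ) w₀ := by
      obtain ⟨b, hb⟩ := exists_int_value (χ := η) ht
      rw [hsum, hb]
      simp [map_div₀]
    rw [hreal, hsum] at hcoeff
    have hf0 : (f : ℂ) ≠ 0 := hf ▸ χ.2.one_ne_zero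
    have hf00 : (f₀ : ℂ) ≠ 0 := hf₀ ▸ η.2.one_ne_zero
    have hG0 : (Nat.card G : ℂ) ≠ 0 := Nat.cast_ne_zero.mpr Nat.card_pos.ne'
    have hc2 : (c : ℂ) ^ 2 = 1 := by rcases hc with e | e <;> rw [e] <;> norm_num
    have hrelC : (c : ℂ) * f₀ + (1 + (E.av χ : ℂ) * f) = 0 := by exact_mod_cast hrel'
    have hYv : (η : G → ℂ) t = -(c : ℂ) * (1 + E.av χ * X) := by linear_combination (c : ℂ) * hY - (η : G → ℂ) t * hc2
    rw [hYv] at hcoeff
    have ha2 : (E.av χ : ℂ) ^ 2 = 1 := by rcases ha with e | e <;> rw [e] <;> norm_num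
    suffices hgoal : ((univ.filter fun a => IsConj t a ∧ IsConj t (a⁻¹ * w₀)).card : ℂ) * (Nat.card G * f * f₀)
        = (K : ℂ) ^ 2 * ((-(c : ℂ)) * E.av χ * ((X : ℂ) - f) ^ 2) by exact_mod_cast hgoal
    rw [← hcoeff]
    have hfrel : (f₀ : ℂ) = -(c : ℂ) * (1 + (E.av χ : ℂ) * f) := by linear_combination (c : ℂ) * hrelC - (f₀ : ℂ) * hc2
    field_simp
    rw [hfrel]
    rcases hc with e | e <;> rcases ha with e' | e' <;> rw [e, e'] <;> push_cast <;> ring
  -- every involution inverts an element of order `p`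
  have hinv : ∀ t : G, orderOf t = 2 → ∃ a, IsConj t a ∧ a ∈ N ∧ a ∉ (P : Subgroup G) := by
    intro t ht
    obtain ⟨K, X, hK, hX, hXle, hXne, hform⟩ := hformula t ht
    by_contra! hnone
    have h0 : (univ.filter fun a => IsConj t a ∧ IsConj t (a⁻¹ * w₀)).card = 0 := by
      rw [Finset.card_eq_zero, Finset.filter_eq_empty_iff]
      rintro a - ⟨h1, h2⟩
      exact (hpair t ht a h1 h2).2 (hnone a h1 (hpair t ht a h1 h2).1)
    rw [h0, Nat.cast_zero, zero_mul] at hform
    have hK0 : (K : ℤ) ^ 2 ≠ 0 := pow_ne_zero _ (by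
      rw [← hK]; exact_mod_cast Subgroup.index_ne_zero_of_finite)
    have h1 : (X : ℤ) - f ≠ 0 := sub_ne_zero.mpr hXne
    rcases hc with e | e <;> rcases ha with e' | e' <;> rw [e, e'] at hform <;> simp [hK0, h1] at hform
  have hdvd : 2 ∣ Nat.card G := (dvd_mul_right 2 p).trans (hNcard ▸ Subgroup.card_subgroup_dvd_card N)
  obtain ⟨t, ht, htodd⟩ := exists_central_involution hdvd
  obtain ⟨K, X, hK, hX, hXle, hXne, hform⟩ := hformula t ht
  obtain ⟨a₀, ha₀, ha₀N, ha₀P⟩ := hinv t ht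
  have hcnt : (univ.filter fun a => IsConj t a ∧ IsConj t (a⁻¹ * w₀)).card = p := by
    have hset : (univ.filter fun a => IsConj t a ∧ IsConj t (a⁻¹ * w₀))
        = (univ.filter fun a => a ∈ N) \ (univ.filter fun a => a ∈ (P : Subgroup G)) := by
      ext a
      simp only [Finset.mem_filter, Finset.mem_univ, true_and, Finset.mem_sdiff]
      refine ⟨fun ⟨h1, h2⟩ => hpair t ht a h1 h2, fun ⟨h1, h2⟩ => ⟨hall t ht a₀ ha₀N ha₀P ha₀ a h1 h2, ?_⟩⟩
      refine hall t ht a₀ ha₀N ha₀P ha₀ _ (mul_mem (inv_mem h1) (hPN w₀.2)) fun hh => h2 ?_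
      have := mul_mem hh (inv_mem w₀.2)
      rw [mul_inv_cancel_right] at this
      exact inv_mem_iff.mp this
    rw [hset, Finset.card_sdiff_of_subset (fun a ha => by
      simp only [Finset.mem_filter, Finset.mem_univ, true_and] at ha ⊢
      exact hPN ha), ← Fintype.card_subtype, ← Fintype.card_subtype, ← Nat.card_eq_fintype_card,
      ← Nat.card_eq_fintype_card, hNcard, hP]
    omega
  rw [hcnt] at hform
  refine ⟨f, f₀, K, E.av χ, -c, ha, ?_, by linarith, oth_congr E hP hχo hf, ?_, two_le_degree hG hne hf,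
    two_le_degree hG hηne hf₀, degree_dvd_card χ.2 hf, degree_dvd_card η.2 hf₀, ?_,
    hK ▸ Subgroup.index_dvd_card _, hK ▸ htodd, ?_⟩
  · rcases hc with e | e <;> rw [e] <;> norm_num
  · have := exc_congr E hP hη hf₀
    rw [hm] at this
    convert this using 1
    push_cast; ring
  · have := sum_sq_le ({trivChar G, χ, η} : Finset (IrrCharacter G))
      (fun x => if x = trivChar G then 1 else if x = χ then f else f₀) (by
        intro x hx
        simp only [Finset.mem_insert, Finset.mem_singleton] at hx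
        rcases hx with rfl | rfl | rfl <;> simp [hne, hηne, hηχ, hf, hf₀])
    rw [Finset.sum_insert (by simp [Ne.symm hne, Ne.symm hηne]), Finset.sum_pair (Ne.symm hηχ)] at this
    simpa [hne, hηne, hηχ, add_assoc] using this
  · have h1 : ((X : ℤ) - f) ^ 2 ≤ 4 * (f : ℤ) ^ 2 := by
      rw [abs_le] at hXle
      nlinarith
    have h2 : ((p * Nat.card G * f * f₀ : ℕ) : ℤ) ≤ ((K ^ 2 * (4 * f ^ 2) : ℕ) : ℤ) := by
      push_cast
      calc (p : ℤ) * Nat.card G * f * f₀ = (K : ℤ) ^ 2 * ((-c) * E.av χ * ((X : ℤ) - f) ^ 2) := by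
            rw [← hform]; ring
        _ ≤ (K : ℤ) ^ 2 * (4 * (f : ℤ) ^ 2) := by
            refine mul_le_mul_of_nonneg_left ?_ (sq_nonneg _)
            rcases hc with e | e <;> rcases ha with e' | e' <;> rw [e, e'] <;> nlinarith [sq_nonneg ((X : ℤ) - f)]
    exact_mod_cast h2

end Cfsg.Lib.SimpleOrder.DefectOne
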