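import Cfsg.Agent.Lib.SimpleOrder.DefectOneInvol

/-!
# Numerical restrictions from a Sylow subgroup of prime order
-/

set_option autoImplicit false
set_option linter.unusedSectionVars false
set_option linter.style.longLine false
set_option linter.style.haveILetI false

namespace Cfsg.Lib.SimpleOrder.DefectOne

open Cfsg.Lib.Characters Cfsg.Lib.Blocks Cfsg.Lib.FreeNormalizer Finset
open scoped Classical

universe u

/-- Degree patterns for an automiser of order two. -/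
def TwoPat (p N f f₀ : ℕ) : Prop :=
  ((f % p = 1 ∧ f₀ = f + 1) ∨ (f % p = p - 1 ∧ f = f₀ + 1)) ∧ 2 ≤ f ∧ 2 ≤ f₀ ∧ f ∣ N ∧ f₀ ∣ N ∧
    1 + f ^ 2 + f₀ ^ 2 ≤ N

/-- Degree patterns for an automiser of order three. -/
def ThreePat (p N f g f₀ : ℕ) : Prop :=
  (f % p = 1 ∨ f % p = p - 1) ∧ (g % p = 1 ∨ g % p = p - 1) ∧
    (f₀ = 1 + f + g ∨ f₀ + g = 1 + f ∨ f₀ + 1 + f = g ∨ f₀ + f = 1 + g ∨ f₀ + 1 + g = f ∨ f₀ + 1 = f + g) ∧
    (f₀ % p = 3 ∨ f₀ % p = p - 3) ∧ 2 ≤ f ∧ 2 ≤ g ∧ f ∣ N ∧ g ∣ N ∧ f₀ ∣ N ∧ 1 + f ^ 2 + g ^ 2 ≤ N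

theorem mod_of_dvd_sub {p f : ℕ} (hp : 2 ≤ p) {a : ℤ} {r : ℕ} (hr : r < p)
    (ha : (p : ℤ) ∣ a - (r : ℤ)) (h : (p : ℤ) ∣ (f : ℤ) - a) : f % p = r := by
  have h1 : (r : ℤ) ≡ (f : ℤ) [ZMOD (p : ℤ)] :=
    Int.modEq_iff_dvd.mpr (by have := dvd_add h ha; simpa using this)
  have h2 := (Int.natCast_modEq_iff.mp h1).symm
  rwa [Nat.ModEq, Nat.mod_eq_of_lt hr] at h2

variable {G : Type u} [Group G] [Finite G] [IsSimpleGroup G]

/-- All the restrictions: `n` Sylow subgroups, centraliser of order `p * c`, automiser of order `m`. -/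
theorem restrictions (p : ℕ) [hp : Fact p.Prime] (r : ℕ) (hr : Nat.card G = p * r) (hpr : ¬ p ∣ r)
    (hr1 : 1 < r) :
    ∃ n m c : ℕ, n = Nat.card (Sylow p G) ∧ n % p = 1 ∧ n ≠ 1 ∧ m ∣ p - 1 ∧ m ≠ 1 ∧ c * m * n = r ∧
      (m = 2 → 5 ≤ p → ∃ f f₀, TwoPat p (Nat.card G) f f₀ ∧ (f < 2 * p → c = 1) ∧ (f₀ < 2 * p → 2 ≤ f₀)) ∧
      (m = 2 → 5 ≤ p → c = 1 → ∃ f f₀ k, TwoPat p (Nat.card G) f f₀ ∧ k ∣ Nat.card G ∧ ¬ 2 ∣ k ∧
        p * Nat.card G * f * f₀ ≤ k ^ 2 * (4 * f ^ 2)) ∧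
      (m = 3 → 7 ≤ p → ∃ f g f₀, ThreePat p (Nat.card G) f g f₀ ∧ (f < 2 * p → c = 1) ∧ (g < 2 * p → c = 1)) ∧
      (p = 5 → m = 4 → ∃ f, 2 ≤ f ∧ f % 2 = 1 ∧ (f % 5 = 1 ∨ f % 5 = 4) ∧ f ∣ Nat.card G ∧
        1 + f ^ 2 ≤ Nat.card G ∧ (f < 10 → c = 1)) := by
  letI := Fintype.ofFinite G
  have hG : ¬ IsMulCommutative G := not_comm_of_not_prime (by
    rw [hr]; exact Nat.not_prime_mul hp.out.ne_one (by omega))
  obtain ⟨P⟩ : Nonempty (Sylow p G) := inferInstance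
  have hP : Nat.card (P : Subgroup G) = p := by
    rw [P.card_eq_multiplicity, hr, Nat.factorization_mul hp.out.ne_zero (by omega), Finsupp.coe_add,
      Pi.add_apply, hp.out.factorization_self, Nat.factorization_eq_zero_of_not_dvd hpr, pow_one]
  obtain ⟨M, hM⟩ := exists_isPModular p
  haveI := hM.2.1.isPrime
  obtain ⟨c, hc⟩ := dvd_card_centralizer hP
  have hcard := card_eq hP
  rw [hc, hr, mul_assoc p, mul_assoc p] at hcard
  have hn1 : Nat.card (Sylow p G) ≠ 1 := card_sylow_ne_one hG p ⟨r, hr⟩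
  have hnmod : Nat.card (Sylow p G) % p = 1 := by
    have := card_sylow_modEq_one p G
    rwa [Nat.ModEq, Nat.one_mod_eq_one.mpr hp.out.ne_one] at this
  have hself : ∀ {χ : IrrCharacter G} {f : ℕ}, χ ∈ B0 (G := G) M → χ ≠ trivChar G → (χ : G → ℂ) 1 = f →
      f < 2 * p → c = 1 := by
    intro χ f hB hne hf hlt
    have h := centralizer_eq_of_small hG hP hM hB hne hf hlt
    rw [h, hP] at hc
    exact Nat.eq_of_mul_eq_mul_left hp.out.pos (hc.symm.trans (mul_one p).symm)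
  have hp2 := hp.out.two_le
  refine ⟨_, _, c, rfl, hnmod, hn1, card_aut_dvd hP, card_aut_ne_one hG hP,
    Nat.eq_of_mul_eq_mul_left hp.out.pos hcard, ?_, ?_, ?_, ?_⟩
  · intro hm hp5
    obtain ⟨χ, hB, hne, f, f₀, a, s, hf, ha, hs, hrel, h1, h2, hf2, hf02, hd, hd0, hsq⟩ := data_two hG hP hM hm hp5
    refine ⟨f, f₀, ⟨?_, hf2, hf02, hd, hd0, hsq⟩, hself hB hne hf, fun _ => hf02⟩
    rcases ha with rfl | rfl <;> rcases hs with rfl | rfl
    · exact Or.inl ⟨mod_of_dvd_sub hp2 (by omega) (by simp) h1, by omega⟩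
    · omega
    · omega
    · refine Or.inr ⟨mod_of_dvd_sub hp2 (by omega) ?_ h1, by omega⟩
      rw [Nat.cast_sub hp.out.one_le]
      exact ⟨-1, by push_cast; ring⟩
  · intro hm hp5 hc1
    have hC : Subgroup.centralizer ((P : Subgroup G) : Set G) = (P : Subgroup G) :=
      (Subgroup.eq_of_le_of_card_ge (le_centralizer hP) (by rw [hc, hc1, mul_one, hP])).symm
    obtain ⟨f, f₀, k, a, s, ha, hs, hrel, h1, h2, hf2, hf02, hd, hd0, hsq, hk, hk2, hle⟩ :=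
      two_involutions hG hP hC hM hm hp5
    refine ⟨f, f₀, k, ⟨?_, hf2, hf02, hd, hd0, hsq⟩, hk, hk2, hle⟩
    rcases ha with rfl | rfl <;> rcases hs with rfl | rfl
    · exact Or.inl ⟨mod_of_dvd_sub hp2 (by omega) (by simp) h1, by omega⟩
    · omega
    · omega
    · refine Or.inr ⟨mod_of_dvd_sub hp2 (by omega) ?_ h1, by omega⟩
      rw [Nat.cast_sub hp.out.one_le]
      exact ⟨-1, by push_cast; ring⟩
  · intro hm hp7
    obtain ⟨χ, hB, hne, ψ, hB', hne', f, g, f₀, a, b, s, hf, hg, ha, hb, hs, hrel, h1, h2, h3, hf2, hg2, hf02, hd, hdg, hd0, hsq⟩ :=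
      data_three hG hP hM hm hp7
    have hmod : ∀ {e : ℤ} {x : ℕ}, (e = 1 ∨ e = -1) → (p : ℤ) ∣ (x : ℤ) - e → x % p = 1 ∨ x % p = p - 1 := by
      intro e x he hx
      rcases he with rfl | rfl
      · exact Or.inl (mod_of_dvd_sub hp2 (by omega) (by simp) hx)
      · refine Or.inr (mod_of_dvd_sub hp2 (by omega) ?_ hx)
        rw [Nat.cast_sub hp.out.one_le]
        exact ⟨-1, by push_cast; ring⟩
    refine ⟨f, g, f₀, ⟨hmod ha h1, hmod hb h2, ?_, ?_, hf2, hg2, hd, hdg, hd0, hsq⟩, hself hB hne hf, hself hB' hne' hg⟩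
    · rcases ha with rfl | rfl <;> rcases hb with rfl | rfl <;> rcases hs with rfl | rfl <;> omega
    · rcases hs with rfl | rfl
      · exact Or.inl (mod_of_dvd_sub hp2 (by omega) (by simp) h3)
      · refine Or.inr (mod_of_dvd_sub hp2 (by omega) ?_ h3)
        rw [Nat.cast_sub (by omega : 3 ≤ p)]
        exact ⟨-1, by push_cast; ring⟩
  · intro hp5 hm
    subst hp5
    obtain ⟨χ, hB, hne, f, hf, hf2, hodd, hmod, hd, hsq⟩ := data_four hG hP hM hm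
    exact ⟨f, hf2, hodd, hmod, hd, hsq, hself hB hne hf⟩

end Cfsg.Lib.SimpleOrder.DefectOne
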